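import Cfsg.Agent.H891.IF.TE6Tab
import Cfsg.Agent.H203.IF.Heis
import Cfsg.Agent.H255.IF.Key
import Cfsg.Agent.H190.IF.Heis

/-!
# S5719, `²E₆(q)`, `q` odd: the core (helper891)

* `SE X n s` : `s` acts on the root groups by the signs of the mask `n`;
* `Dat q X` : the data used;
* `Dat.u_long`, `Dat.u_short` : an involution of mask `4, 8, 12`;
* `Dat.main8` : no `Fix A` with `A` containing an involution of mask `4, 8, 12`.
-/

set_option autoImplicit false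
set_option linter.unusedSectionVars false

namespace Cfsg.Agent.H891.IF

open Subgroup Cfsg.Agent.H203.IF Cfsg.Agent.H255.IFK
open Cfsg.Agent.KFacts.TwESix.Comb (bf rts rho bf_add_left bf_sub_left bf_sub_right bf_comm)
open scoped commutatorElement Pointwise

/-- `s` acts by the signs of the mask `n` -/
structure SE {T : Type*} [Group T] (X : (Fin 4 → ℤ) → Subgroup T) (n : ℕ) (s : T) : Prop where
  fix : ∀ z ∈ rts, ev n z = true → ∀ u ∈ X z, s * u = u * s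
  inv : ∀ z ∈ rts, ev n z = false → ∀ u ∈ X z, s * u * s⁻¹ = u⁻¹

/-- the data used -/
structure Dat {T : Type*} [Group T] (q : ℕ) (X : (Fin 4 → ℤ) → Subgroup T) : Prop where
  od : Odd q
  q3 : 3 ≤ q
  cl : ∀ z ∈ rts, bf z z = 4 → Nat.card (X z) = q
  cs : ∀ z ∈ rts, bf z z = 2 → Nat.card (X z) = q ^ 2
  com : ∀ z ∈ rts, ∀ w ∈ rts, z + w ∉ rts → w ≠ -z → ∀ u ∈ X z, ∀ v ∈ X w, u * v = v * u
  cm : ∀ z ∈ rts, ∀ w ∈ rts, z + w ∈ rts → bf (z + w) (z + w) = 4 → bf z z = bf w w →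
    ∀ u ∈ X z, ∀ v ∈ X w, ⁅u, v⁆ ∈ X (z + w)
  cj : ∀ z ∈ rts, ∀ w ∈ rts, z + w ∈ rts → bf (z + w) (z + w) = 4 → bf z z = bf w w →
    ∀ u ∈ X z, u ≠ 1 → ∀ r ∈ X (z + w), ∃ v ∈ X w, ⁅u, v⁆ = r
  ab : ∀ z ∈ rts, bf z z = 4 → ∀ u ∈ X z, ∀ v ∈ X z, u * v = v * u
  bt : ∀ z ∈ rts, ∀ w ∈ rts, z ≠ w → z ≠ -w → ∀ L : Subgroup T,
    (∀ c ∈ rts, (∃ m a b : ℤ, 0 < m ∧ 0 < a ∧ 0 < b ∧ m • c = a • z + b • w) → X c ≤ L) →
    ∀ u ∈ X z, ∀ v ∈ X w, ⁅u, v⁆ ∈ L
  sl : ∀ a ∈ rts, bf a a = 4 → ∃ ζ : T, SE X (msk a) ζ ∧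
    ∀ u ∈ X a, ∀ v ∈ X (-a), u ≠ 1 → v ≠ 1 → ζ ∈ closure {u, v}
  gen : ∀ L : Subgroup T, (∀ z ∈ rts, X z ≤ L) → L = ⊤
  cen : ∀ g : T, (∀ x, g * x = x * g) → g = 1
  i1 : ∀ s, SE X 1 s → (centralizer ({s} : Set T)).index * (q - 1) ^ 6 ≤ q ^ 46
  i8 : ∀ n ∈ [4, 8, 12], ∀ s, SE X n s → (centralizer ({s} : Set T)).index * (q - 1) ^ 6 ≤ q ^ 38

/-- arithmetic: `r` is small -/
theorem arith_r {q r : ℕ} (hq : Odd q) (h3 : 3 ≤ q) (hr : r ∣ q) (h : r ^ 5 * (q - 1) ^ 6 < q ^ 8) : r ^ 2 < q := by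
  by_contra hcon
  push Not at hcon
  have hr0 : 0 < r := Nat.pos_of_dvd_of_pos hr (by omega)
  by_cases h7 : 7 ≤ q
  · have h1 : (r ^ 5 * (q - 1) ^ 6) ^ 2 < (q ^ 8) ^ 2 := Nat.pow_lt_pow_left h (by norm_num)
    have h2 : q ^ 5 * (q - 1) ^ 12 ≤ (r ^ 5 * (q - 1) ^ 6) ^ 2 := by
      calc q ^ 5 * (q - 1) ^ 12 ≤ (r ^ 2) ^ 5 * (q - 1) ^ 12 := Nat.mul_le_mul_right _ (Nat.pow_le_pow_left hcon 5)
        _ = _ := by ring
    have h4 : q ^ 5 * (q - 1) ^ 12 < q ^ 5 * q ^ 11 := by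
      calc _ ≤ _ := h2
        _ < _ := h1
        _ = _ := by ring
    have h5 : (q - 1) ^ 12 < q ^ 11 := Nat.lt_of_mul_lt_mul_left h4
    obtain ⟨m, rfl⟩ : ∃ m, q = m + 1 := ⟨q - 1, by omega⟩
    rw [Nat.add_sub_cancel] at h5
    have h6 : 6 * (m + 1) ≤ 7 * m := by omega
    have h8 : (6 * (m + 1)) ^ 11 ≤ (7 * m) ^ 11 := Nat.pow_le_pow_left h6 11
    rw [mul_pow, mul_pow] at h8
    have h9 : 6 * m ^ 11 ≤ m ^ 12 := by
      rw [pow_succ, mul_comm]
      exact Nat.mul_le_mul_left _ (by omega)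
    have h10 : 7 ^ 11 * m ^ 11 ≤ 6 ^ 12 * m ^ 11 := Nat.mul_le_mul_right _ (by norm_num)
    have h11 : 6 ^ 11 * (m + 1) ^ 11 ≤ 6 ^ 11 * m ^ 12 := by
      calc _ ≤ _ := h8
        _ ≤ _ := h10
        _ = 6 ^ 11 * (6 * m ^ 11) := by ring
        _ ≤ _ := Nat.mul_le_mul_left _ h9
    have h12 : (m + 1) ^ 11 ≤ m ^ 12 := Nat.le_of_mul_le_mul_left h11 (by norm_num)
    omega
  · have h8 : q = 3 ∨ q = 5 := by
      obtain ⟨k, hk⟩ := hq
      omega
    have hr1 : r = 1 := by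
      rcases h8 with rfl | rfl
      · rcases (Nat.dvd_prime Nat.prime_three).1 hr with h9 | h9
        · exact h9
        · subst h9
          exact absurd h (by norm_num)
      · rcases (Nat.dvd_prime Nat.prime_five).1 hr with h9 | h9
        · exact h9
        · subst h9
          exact absurd h (by norm_num)
    subst hr1
    omega

/-- arithmetic: `f < q^9` -/
theorem arith_f {q f : ℕ} (h3 : 3 ≤ q) (h : f ^ 5 * (q - 1) ^ 6 < q ^ 46) : f < q ^ 9 := by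
  by_contra hcon
  push Not at hcon
  have h1 : q ^ 45 * (q - 1) ^ 6 < q ^ 45 * q := by
    calc q ^ 45 * (q - 1) ^ 6 = (q ^ 9) ^ 5 * (q - 1) ^ 6 := by ring
      _ ≤ f ^ 5 * (q - 1) ^ 6 := Nat.mul_le_mul_right _ (Nat.pow_le_pow_left hcon 5)
      _ < _ := h
      _ = _ := by ring
  have h2 : (q - 1) ^ 6 < q := Nat.lt_of_mul_lt_mul_left h1
  obtain ⟨m, rfl⟩ : ∃ m, q = m + 1 := ⟨q - 1, by omega⟩
  rw [Nat.add_sub_cancel] at h2
  have h4 : m * 2 ≤ m ^ 6 := by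
    rw [pow_succ, mul_comm]
    refine Nat.mul_le_mul_right _ ?_
    calc 2 ≤ m := by omega
      _ ≤ m ^ 5 := Nat.le_self_pow (by norm_num) _
  omega

/-- the order of a Heisenberg group -/
theorem heis_card {T : Type*} [Group T] [Finite T] {ι : Type*} {Z : Subgroup T} {X : ι → Subgroup T} {S : Finset ι}
    {o : ι → ι} (H : Heis Z X S o) (hZ : Z ≠ ⊥) : Nat.card (QQ Z X S) = Nat.card Z * ∏ i ∈ S, Nat.card (X i) := by
  classical
  refine le_antisymm ?_ (H.card_ge hZ)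
  let ex : ((i : S) → X i) → ι → T := fun a i => if h : i ∈ S then (a ⟨i, h⟩ : T) else 1
  have hex : ∀ a, ∀ i ∈ S, ex a i ∈ X i := by
    intro a i hi
    simp only [ex, dif_pos hi]
    exact (a ⟨i, hi⟩).2
  let f : Z × ((i : S) → X i) → QQ Z X S := fun p =>
    ⟨p.1 * Heis.pr (ex p.2) S.toList, mul_mem (Heis.Z_le p.1.2)
      (Heis.pr_mem (fun i hi => Finset.mem_toList.1 hi) (hex p.2))⟩
  have hf : Function.Surjective f := by
    rintro ⟨g, hg⟩
    obtain ⟨a, ha, z, hz, rfl⟩ := H.nf hg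
    refine ⟨(⟨z, hz⟩, fun i => ⟨a i, ha i i.2⟩), ?_⟩
    apply Subtype.ext
    show z * Heis.pr (ex fun i => ⟨a i, ha i i.2⟩) S.toList = z * Heis.pr a S.toList
    congr 1
    unfold Heis.pr
    congr 1
    apply List.map_congr_left
    intro i hi
    have hi' := Finset.mem_toList.1 hi
    simp only [ex, dif_pos hi']
  have h1 := Nat.card_le_card_of_surjective f hf
  rw [Nat.card_prod, Nat.card_pi] at h1
  have h2 : ∏ i : S, Nat.card (X i) = ∏ i ∈ S, Nat.card (X i) := by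
    rw [← Finset.prod_coe_sort S (fun i => Nat.card (X i))]
  rwa [h2] at h1

namespace SE

variable {T : Type*} [Group T] {X : (Fin 4 → ℤ) → Subgroup T} {n m : ℕ} {s t : T}

theorem mul (hs : SE X n s) (ht : SE X m t) (hn : n < 16) (hm : m < 16) : SE X (n ^^^ m) (s * t) := by
  have key : ∀ z ∈ rts, ∀ u ∈ X z, s * t * u * (s * t)⁻¹ = if ev n z = ev m z then u else u⁻¹ := by
    intro z hz u hu
    have h1 : s * t * u * (s * t)⁻¹ = s * (t * u * t⁻¹) * s⁻¹ := by group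
    rw [h1]
    cases h2 : ev n z <;> cases h3 : ev m z
    · rw [if_pos rfl, ht.inv z hz h3 u hu, hs.inv z hz h2 _ (inv_mem hu), inv_inv]
    · rw [if_neg (by decide), ht.fix z hz h3 u hu, mul_inv_cancel_right, hs.inv z hz h2 _ hu]
    · rw [if_neg (by decide), ht.inv z hz h3 u hu, hs.fix z hz h2 _ (inv_mem hu), mul_inv_cancel_right]
    · rw [if_pos rfl, ht.fix z hz h3 u hu, mul_inv_cancel_right, hs.fix z hz h2 _ hu, mul_inv_cancel_right]
  refine ⟨fun z hz h u hu => ?_, fun z hz h u hu => ?_⟩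
  · have h1 := key z hz u hu
    rw [tab_xor n hn m hm z hz, beq_iff_eq] at h
    rw [if_pos h, mul_inv_eq_iff_eq_mul] at h1
    exact h1
  · have h1 := key z hz u hu
    rw [tab_xor n hn m hm z hz] at h
    rwa [if_neg (by intro h2; rw [h2] at h; revert h; cases ev m z <;> decide)] at h1

end SE

namespace Dat

variable {T : Type*} [Group T] {q : ℕ} {X : (Fin 4 → ℤ) → Subgroup T} {n m : ℕ} {s t : T}

theorem norm {z : Fin 4 → ℤ} (hz : z ∈ rts) : bf z z = 4 ∨ bf z z = 2 := Cfsg.Agent.KFacts.TwESix.Comb.norm_rts z hz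

variable (D : Dat q X)

include D

theorem card {z : Fin 4 → ℤ} (hz : z ∈ rts) : Nat.card (X z) = q ^ dm z := by
  unfold dm
  rcases norm hz with h | h
  · rw [if_pos h, D.cl z hz h, pow_one]
  · rw [if_neg (by rw [h]; norm_num), D.cs z hz h]

theorem odd_card {z : Fin 4 → ℤ} (hz : z ∈ rts) : Odd (Nat.card (X z)) := by
  rw [D.card hz]
  exact D.od.pow

theorem nontriv {z : Fin 4 → ℤ} (hz : z ∈ rts) : ∃ u ∈ X z, u ≠ 1 := by
  by_contra hcon
  push Not at hcon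
  have h1 : X z = ⊥ := by
    rw [eq_bot_iff]
    intro u hu
    exact mem_bot.2 (hcon u hu)
  have h2 := D.card hz
  rw [h1, card_bot] at h2
  have h3 := D.q3
  have h4 : q ≤ q ^ dm z := by
    apply Nat.le_self_pow
    unfold dm
    split_ifs <;> norm_num
  omega

theorem ne_bot {z : Fin 4 → ℤ} (hz : z ∈ rts) : X z ≠ ⊥ := by
  intro h
  obtain ⟨u, hu, hu1⟩ := D.nontriv hz
  rw [h] at hu
  exact hu1 (mem_bot.1 hu)

theorem of_sq {z : Fin 4 → ℤ} (hz : z ∈ rts) {u : T} (hu : u ∈ X z) {A : Subgroup T} (h : u * u ∈ A) : u ∈ A := by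
  obtain ⟨k, hk⟩ := D.odd_card hz
  have h1 : (⟨u, hu⟩ : X z) ^ (2 * k + 1) = 1 := by rw [← hk]; exact pow_card_eq_one'
  have h2 : u ^ (2 * k + 1) = 1 := congrArg Subtype.val h1
  have h3 : (u * u) ^ (k + 1) = u := by
    rw [← pow_two, ← pow_mul, show 2 * (k + 1) = 2 * k + 1 + 1 by ring, pow_succ, h2, one_mul]
  rw [← h3]
  exact pow_mem h _

theorem sq_one {z : Fin 4 → ℤ} (hz : z ∈ rts) {u : T} (hu : u ∈ X z) (h : u * u = 1) : u = 1 :=
  mem_bot.1 (D.of_sq hz hu (A := ⊥) (mem_bot.2 h))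

/-- an element commuting with all root groups is trivial -/
theorem eq_one {g : T} (h : ∀ z ∈ rts, ∀ u ∈ X z, g * u = u * g) : g = 1 := by
  apply D.cen
  have h1 : centralizer ({g} : Set T) = ⊤ := D.gen _ fun z hz u hu => by
    rw [mem_centralizer_singleton_iff]
    exact (h z hz u hu).symm
  intro x
  have h2 : x ∈ centralizer ({g} : Set T) := by rw [h1]; exact mem_top x
  exact (mem_centralizer_singleton_iff.1 h2).symm

theorem sq (hs : SE X n s) : s * s = 1 := by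
  apply D.eq_one
  intro z hz u hu
  cases h : ev n z
  · have h1 := hs.inv z hz h u hu
    have h2 := hs.inv z hz h _ (inv_mem hu)
    have h3 : s * s * u * (s * s)⁻¹ = u := by
      calc s * s * u * (s * s)⁻¹ = s * (s * u * s⁻¹) * s⁻¹ := by group
        _ = u := by rw [h1, h2, inv_inv]
    exact mul_inv_eq_iff_eq_mul.1 h3
  · have h1 := hs.fix z hz h u hu
    rw [mul_assoc, h1, ← mul_assoc, h1, mul_assoc]

theorem uniq (hs : SE X n s) (ht : SE X n t) : s = t := by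
  have h1 : t⁻¹ * s = 1 := by
    apply D.eq_one
    intro z hz u hu
    cases h : ev n z
    · have h1 := hs.inv z hz h u hu
      have h2 := ht.inv z hz h u hu
      calc t⁻¹ * s * u = t⁻¹ * (s * u * s⁻¹) * s := by group
        _ = t⁻¹ * (t * u * t⁻¹) * s := by rw [h1, h2]
        _ = u * (t⁻¹ * s) := by group
    · have h1 := hs.fix z hz h u hu
      have h2 := ht.fix z hz h u hu
      calc t⁻¹ * s * u = t⁻¹ * (s * u) := by group
        _ = t⁻¹ * (u * t) * (t⁻¹ * s) := by rw [h1]; group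
        _ = u * (t⁻¹ * s) := by rw [← h2]; group
  exact (inv_mul_eq_one.1 h1).symm

theorem ne_one (hs : SE X n s) (hn : n ∈ [1, 4, 8, 12]) : s ≠ 1 := by
  rintro rfl
  obtain ⟨b, hb, h⟩ := tab_exists n hn
  obtain ⟨u, hu, hu1⟩ := D.nontriv hb
  have h1 := hs.inv b hb h u hu
  rw [one_mul, inv_one, mul_one] at h1
  apply hu1
  apply D.sq_one hb hu
  nth_rewrite 1 [h1]
  exact inv_mul_cancel u

theorem order_two (hs : SE X n s) (hn : n ∈ [1, 4, 8, 12]) : orderOf s = 2 :=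
  orderOf_eq_prime (by rw [pow_two, D.sq hs]) (D.ne_one hs hn)

/-! ### Heisenberg groups -/

/-- the roots of the Heisenberg group -/
def SS (a : Fin 4 → ℤ) (P : (Fin 4 → ℤ) → Bool) : Finset (Fin 4 → ℤ) :=
  (rts.filter fun b => bf b a == 2 && P b).toFinset

omit D in
theorem mem_SS {a : Fin 4 → ℤ} {P : (Fin 4 → ℤ) → Bool} {b : Fin 4 → ℤ} :
    b ∈ SS a P ↔ b ∈ rts ∧ bf b a = 2 ∧ P b = true := by
  unfold SS
  rw [List.mem_toFinset, List.mem_filter, Bool.and_eq_true, beq_iff_eq]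

theorem heis {a : Fin 4 → ℤ} (ha : a ∈ rts) (hl : bf a a = 4) {P : (Fin 4 → ℤ) → Bool}
    (hP : ∀ b ∈ rts, P b = true → P (a - b) = true) : Heis (X a) X (SS a P) fun b => a - b where
  mem b hb := by
    obtain ⟨h1, h2, h3⟩ := mem_SS.1 hb
    exact mem_SS.2 ⟨(tab_sub a ha hl b h1).1 h2, by rw [bf_sub_left, hl, h2]; norm_num, hP b h1 h3⟩
  oo b _ := sub_sub_cancel a b
  zz z hz w hw := D.ab a ha hl z hz w hw
  zx z hz b hb u hu := by
    obtain ⟨h1, h2, -⟩ := mem_SS.1 hb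
    refine D.com a ha b h1 (fun h => ?_) (fun h => ?_) z hz u hu
    · have h3 := (tab_sub a ha hl _ h).2.1
      rw [bf_add_left, hl, h2] at h3
      omega
    · rw [h, Cfsg.Agent.KFacts.TwESix.Comb.bf_neg_left, hl] at h2
      omega
  comm b hb c hc hne u hu v hv := by
    obtain ⟨h1, h2, -⟩ := mem_SS.1 hb
    obtain ⟨h3, h4, -⟩ := mem_SS.1 hc
    refine D.com b h1 c h3 (fun h => ?_) (fun h => ?_) u hu v hv
    · apply hne
      have h5 := (tab_sub a ha hl _ h).2.2 (by rw [bf_add_left, h2, h4]; norm_num)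
      rw [← h5, add_sub_cancel_left]
    · rw [h, Cfsg.Agent.KFacts.TwESix.Comb.bf_neg_left, h2] at h4
      omega
  pair b hb u hu v hv := by
    obtain ⟨h1, h2, -⟩ := mem_SS.1 hb
    have e : b + (a - b) = a := add_sub_cancel b a
    have h3 := D.cm b h1 (a - b) ((tab_sub a ha hl b h1).1 h2) (by rw [e]; exact ha) (by rw [e]; exact hl) (by
      rw [bf_sub_left, bf_sub_right, bf_sub_right, hl, h2, bf_comm a b, h2]; ring) u hu v hv
    rwa [e] at h3
  surj b hb u hu hu1 z hz := by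
    obtain ⟨h1, h2, -⟩ := mem_SS.1 hb
    have e : b + (a - b) = a := add_sub_cancel b a
    exact D.cj b h1 (a - b) ((tab_sub a ha hl b h1).1 h2) (by rw [e]; exact ha) (by rw [e]; exact hl) (by
      rw [bf_sub_left, bf_sub_right, bf_sub_right, hl, h2, bf_comm a b, h2]; ring) u hu hu1 z (by rw [e]; exact hz)

theorem heis_card [Finite T] {a : Fin 4 → ℤ} (ha : a ∈ rts) (hl : bf a a = 4) {P : (Fin 4 → ℤ) → Bool}
    (hP : ∀ b ∈ rts, P b = true → P (a - b) = true) :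
    Nat.card (QQ (X a) X (SS a P)) = q ^ (((rts.filter fun b => bf b a == 2 && P b).map dm).sum + 1) := by
  rw [IF.heis_card (D.heis ha hl hP) (D.ne_bot ha), D.cl a ha hl, pow_succ, mul_comm]
  congr 1
  have h1 : ∏ b ∈ SS a P, Nat.card (X b) = ∏ b ∈ SS a P, q ^ dm b :=
    Finset.prod_congr rfl fun b hb => D.card (mem_SS.1 hb).1
  rw [h1, Finset.prod_pow_eq_pow_sum]
  congr 1
  unfold SS
  rw [List.sum_toFinset dm (nodup_rts.filter _)]

/-! ### Involutions of mask `4, 8, 12` -/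

theorem long_even {a : Fin 4 → ℤ} (ha : a ∈ rts) (hl : bf a a = 4) (hn : n ∈ [4, 8, 12]) (hs : SE X n s) :
    X a ≤ centralizer ({s} : Set T) := fun u hu => by
  rw [mem_centralizer_singleton_iff]
  exact (hs.fix a ha (tab_ev n hn a ha hl).1 u hu).symm

/-- the index of `A ∩ X a` -/
theorem rel_small [Finite T] {A : Subgroup T} (hA : H255.IFK.Fix A) (hsA : s ∈ A) (hn : n ∈ [4, 8, 12]) (hs : SE X n s)
    {a : Fin 4 → ℤ} (ha : a ∈ rts) (hl : bf a a = 4) : A.relIndex (X a) ^ 2 < q := by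
  have hn' : n ∈ [1, 4, 8, 12] := List.mem_cons_of_mem _ hn
  obtain ⟨f, hf, hlt⟩ := hA s hsA (D.order_two hs hn')
  have hq3 := D.q3
  have h1 : f ^ 5 < (centralizer ({s} : Set T)).index := by
    refine lt_of_le_of_lt (Nat.le_mul_of_pos_right _ ?_) hlt
    exact (Set.ncard_pos (Set.toFinite _)).2 ⟨s, hsA, IsConj.refl s⟩
  have h2 : f ^ 5 * (q - 1) ^ 6 < q ^ 38 :=
    lt_of_lt_of_le (Nat.mul_lt_mul_of_pos_right h1 (pow_pos (by omega) _)) (D.i8 n hn s hs)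
  by_cases hXA : X a ≤ A
  · rw [relIndex_eq_one.2 hXA]
    omega
  have hev := tab_ev n hn a ha hl
  have H := D.heis ha hl (P := ev n) hev.2
  have hc : Nat.card (QQ (X a) X (SS a (ev n))) = q ^ 13 := by
    rw [D.heis_card ha hl hev.2, tab_dm n hn a ha hl]
  have h3 := H.rel A hXA
  have hQ : QQ (X a) X (SS a (ev n)) ≤ centralizer ({s} : Set T) := by
    refine Heis.QQ_le (D.long_even ha hl hn hs) fun b hb u hu => ?_
    obtain ⟨h4, -, h5⟩ := mem_SS.1 hb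
    rw [mem_centralizer_singleton_iff]
    exact (hs.fix b h4 h5 u hu).symm
  have h4 := hf _ hQ
  rw [hc, D.cl a ha hl] at h3
  have h5 : Nat.card (A ⊓ X a : Subgroup T) * A.relIndex (X a) = q := by
    rw [← inf_relIndex_right, card_rel inf_le_right, D.cl a ha hl]
  have h6 : q ^ 7 ≤ A.relIndex (QQ (X a) X (SS a (ev n))) * Nat.card (A ⊓ X a : Subgroup T) := by
    refine (Nat.pow_le_pow_iff_left two_ne_zero).1 ?_
    calc (q ^ 7) ^ 2 = q ^ 13 * q := by ring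
      _ ≤ _ := h3
      _ = _ := by ring
  have h7 : q ^ 6 * A.relIndex (X a) ≤ f := by
    refine Nat.le_of_mul_le_mul_left (c := q) ?_ (by omega)
    calc q * (q ^ 6 * A.relIndex (X a)) = q ^ 7 * A.relIndex (X a) := by ring
      _ ≤ A.relIndex (QQ (X a) X (SS a (ev n))) * Nat.card (A ⊓ X a : Subgroup T) * A.relIndex (X a) :=
        Nat.mul_le_mul_right _ h6
      _ ≤ f * Nat.card (A ⊓ X a : Subgroup T) * A.relIndex (X a) :=
        Nat.mul_le_mul_right _ (Nat.mul_le_mul_right _ h4)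
      _ = q * f := by rw [mul_assoc, h5, mul_comm]
  refine arith_r D.od D.q3 (Dvd.intro_left _ h5) ?_
  have h8 : q ^ 30 * (A.relIndex (X a) ^ 5 * (q - 1) ^ 6) < q ^ 30 * q ^ 8 := by
    calc q ^ 30 * (A.relIndex (X a) ^ 5 * (q - 1) ^ 6) = (q ^ 6 * A.relIndex (X a)) ^ 5 * (q - 1) ^ 6 := by ring
      _ ≤ f ^ 5 * (q - 1) ^ 6 := Nat.mul_le_mul_right _ (Nat.pow_le_pow_left h7 5)
      _ < _ := h2
      _ = _ := by ring
  exact Nat.lt_of_mul_lt_mul_left h8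

/-- **the long root groups** -/
theorem u_long [Finite T] {A : Subgroup T} (hA : H255.IFK.Fix A) (hsA : s ∈ A) (hn : n ∈ [4, 8, 12]) (hs : SE X n s)
    {c : Fin 4 → ℤ} (hc : c ∈ rts) (hl : bf c c = 4) : X c ≤ A := by
  obtain ⟨a, ha, hal, hac⟩ := tab_half c hc hl
  have hb := (tab_sub c hc hl a ha).1 hac
  have hbl : bf (c - a) (c - a) = 4 := by
    rw [bf_sub_left, bf_sub_right, bf_sub_right, hl, hal, hac, bf_comm c a, hac]; norm_num
  have e : a + (c - a) = c := add_sub_cancel a c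
  have H := D.heis hc hl (P := fun _ => true) (fun _ _ _ => rfl)
  have haS : a ∈ SS c fun _ => true := mem_SS.2 ⟨ha, hac, rfl⟩
  have hbS := H.mem a haS
  refine Cfsg.Agent.H190.IF.le_of_pairing A (X := X a) (X' := X (c - a)) (H.pair a haS)
    (fun r hr b hb => H.zx r hr a haS b hb) (fun r hr b hb => H.zx r hr (c - a) hbS b hb) H.zz (H.surj a haS) ?_
  have h1 := D.rel_small hA hsA hn hs ha hal
  have h2 := D.rel_small hA hsA hn hs hb hbl
  rw [D.cl a ha hal]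
  by_contra hcon
  push Not at hcon
  rcases le_total (A.relIndex (X a)) (A.relIndex (X (c - a))) with h | h
  · have := Nat.mul_le_mul_right (A.relIndex (X (c - a))) h
    rw [← pow_two] at this
    omega
  · have := Nat.mul_le_mul_left (A.relIndex (X a)) h
    rw [← pow_two] at this
    omega

/-- the involutions of the long roots -/
theorem z_mem [Finite T] {A : Subgroup T} (hA : H255.IFK.Fix A) (hsA : s ∈ A) (hn : n ∈ [4, 8, 12]) (hs : SE X n s)
    {a : Fin 4 → ℤ} (ha : a ∈ rts) (hl : bf a a = 4) {ζ : T} (hζ : SE X (msk a) ζ) : ζ ∈ A := by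
  obtain ⟨ζ', h1, h2⟩ := D.sl a ha hl
  rw [D.uniq hζ h1]
  obtain ⟨u, hu, hu1⟩ := D.nontriv ha
  obtain ⟨v, hv, hv1⟩ := D.nontriv (neg_rts a ha)
  refine ((closure_le _).2 ?_) (h2 u hu v hv hu1 hv1)
  rintro x (rfl | rfl)
  · exact D.u_long hA hsA hn hs ha hl hu
  · refine D.u_long hA hsA hn hs (neg_rts a ha) ?_ hv
    rw [Cfsg.Agent.KFacts.TwESix.Comb.bf_neg_left, Cfsg.Agent.KFacts.TwESix.Comb.bf_neg_right, hl, neg_neg]

/-- **the even root groups** -/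
theorem u_even [Finite T] {A : Subgroup T} (hA : H255.IFK.Fix A) (hsA : s ∈ A) (hn : n ∈ [4, 8, 12]) (hs : SE X n s)
    {b : Fin 4 → ℤ} (hb : b ∈ rts) (he : ev n b = true) : X b ≤ A := by
  intro u hu
  obtain ⟨a, ha, hl, hab⟩ := tab_odd b hb
  obtain ⟨ζ, hζ, -⟩ := D.sl a ha hl
  have h1 := D.z_mem hA hsA hn hs ha hl hζ
  have hsu : s * u = u * s := hs.fix b hb he u hu
  have hsA' : s ∈ MulAut.conj u • A := by
    rw [mem_conj]
    have : u⁻¹ * s * u = s := by rw [mul_assoc, hsu, inv_mul_cancel_left]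
    rwa [this]
  have h2 := D.z_mem (hA.conj u) hsA' hn hs ha hl hζ
  rw [mem_conj] at h2
  have h3 : ζ * u * ζ⁻¹ = u⁻¹ := hζ.inv b hb (by
    rw [tab_msk a ha hl b hb]
    exact beq_eq_false_iff_ne.2 hab) u hu
  have h4 : u⁻¹ * ζ * u * ζ⁻¹ ∈ A := mul_mem h2 (inv_mem h1)
  have h5 : u⁻¹ * ζ * u * ζ⁻¹ = (u * u)⁻¹ := by
    calc u⁻¹ * ζ * u * ζ⁻¹ = u⁻¹ * (ζ * u * ζ⁻¹) := by group
      _ = _ := by rw [h3, mul_inv_rev]
  rw [h5] at h4
  exact D.of_sq hb hu (inv_mem_iff.1 h4)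

/-- **an involution of mask `4, 8, 12`** -/
theorem main8 [Finite T] {A : Subgroup T} (hA : H255.IFK.Fix A) (hsA : s ∈ A) (hn : n ∈ [4, 8, 12]) (hs : SE X n s) :
    A = ⊤ := by
  apply D.gen
  intro b hb
  obtain ⟨m, hm, he⟩ := tab_cov b hb
  obtain ⟨a, ha, hal, c, hc, hcl, hac⟩ := tab_pair m hm
  obtain ⟨ζ, hζ, -⟩ := D.sl a ha hal
  obtain ⟨ξ, hξ, -⟩ := D.sl c hc hcl
  have h1 := hζ.mul hξ (msk_lt a ha) (msk_lt c hc)
  rw [hac] at h1
  exact D.u_even hA (mul_mem (D.z_mem hA hsA hn hs ha hal hζ) (D.z_mem hA hsA hn hs hc hcl hξ)) hm h1 hb he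

end Dat

end Cfsg.Agent.H891.IF
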