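import Cfsg.Agent.H891.IF.TE6Phi
import Cfsg.Agent.H203.IF.TE6Sl
import Cfsg.Agent.H203.IF.TE6Idx
import Cfsg.Agent.H209.IF.Kill

/-!
# S5719, `²E₆(q)`, `q` odd (helper891, helper203)

`te6_odd` : there is no `IF A Γ` in `²E₆(q)` with `|A|` even, `q` odd.
-/

set_option autoImplicit false
set_option linter.unusedSectionVars false
set_option maxHeartbeats 400000

namespace Cfsg.Agent.H891.IF

open CoxeterSystem Cfsg.Agent.ChevalleyStructure.CoxeterGeom Cfsg.Agent.Tits.Roots Cfsg.Agent.Tits.Core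
  Cfsg.Agent.Tits.RootComb Cfsg.Agent.Nodes.Comb Cfsg.Agent.Nodes.Reps Cfsg.Agent.Nodes.BNOf
  Cfsg.Agent.Nodes.RGDTwGen Cfsg.Agent.Nodes.RGDChev Cfsg.Agent.Nodes.RGDFold
  Cfsg.Agent.Nodes.RGDFoldSL Cfsg.Agent.Nodes.RGDTwE6 Cfsg.Agent.Nodes.RGDTwTab Cfsg.Agent.Nodes.RGDTwCoordE6
  Cfsg.Agent.Nodes.RGDTwCoord Cfsg.Agent.Nodes.RGDTwComE6 Cfsg.Agent.Nodes.RGDTwActE6
  Cfsg.Agent.Nodes.RGDLib Cfsg.Agent.Nodes.Bruhat
open Cfsg.Lie Cfsg.Agent.ChevalleyStructure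
open Cfsg.Agent.KFacts.TwESix.Comb (bf rts mem_rts rho)
open Cfsg.Agent.UGT.U2.FOne Cfsg.Agent.UGT.U2.FOne.TwESix
open Cfsg.Agent.H557.LrAbs Cfsg.Agent.H557.LrSgn Cfsg.Agent.H557.LrTor Cfsg.Agent.H557.LrOrb Cfsg.Agent.H557.LrIso
  Cfsg.Agent.H557.LrNF Cfsg.Agent.H557.LrTwE
open scoped commutatorElement MatrixGroups Pointwise

theorem tab_dbl : ∀ z ∈ rts, z + z ∉ rts ∧ z ≠ -z := by decide +kernel

theorem ev_iff (n : ℕ) (c : Fin 4 → ℤ) : H203.IF.TE6.ev n c ↔ ev n c = true := by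
  unfold H203.IF.TE6.ev ev
  rw [Fin.sum_univ_four, beq_iff_eq]
  rfl

theorem bits_true {n : ℕ} {c : Fin 4 → ℤ} : bits 4 n c = 0 ↔ ev n c = true :=
  (H203.IF.TE6.bits_iff n c).trans (ev_iff n c)

theorem bits_false {n : ℕ} {c : Fin 4 → ℤ} : bits 4 n c ≠ 0 ↔ ev n c = false := by
  rw [Ne, bits_true, Bool.not_eq_true]

variable {K : Type} [Field K] [Fintype K] {q : ℕ} {φ : K →+* K} (hφ : ∀ x, φ x = x ^ q)
  (hqq : ∀ t : K, (t ^ q) ^ q = t) {W : Type*} [Group W] {cs : CoxeterSystem CoxeterMatrix.F₄ W}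

theorem se_of_sgn {n : ℕ} {s : ↥(twistedE6 K q)} (hs : SgnEl cs isCartan (T K q) (X φ q) (bits 4 n) s) :
    SE (X φ q) n s where
  fix z hz h u hu := hs.fix z ((mem_rts cs).2 hz) (bits_true.2 h) u hu
  inv z hz h u hu := hs.inv z ((mem_rts cs).2 hz) (bits_false.2 h) u hu

include hφ hqq in
theorem sgn_of_se (p : ℕ) [Fact p.Prime] [CharP K p] (cs : CoxeterSystem CoxeterMatrix.F₄ W) {n : ℕ}
    {s : ↥(twistedE6 K q)} (hs : SE (X φ q) n s) : SgnEl cs isCartan (T K q) (X φ q) (bits 4 n) s where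
  mem := by
    have hW : Finite W := Cfsg.Agent.KFacts.TwESix.Comb.finiteW cs
    refine mem_T_of (rgd cs hφ hqq p) (GG_top φ hφ hqq) fun c hc => ?_
    have hc' := (mem_rts cs).1 hc
    ext x
    rw [mem_cj]
    cases h : ev n c
    · constructor
      · intro hx
        have h1 := hs.inv c hc' h _ hx
        have h2 : s * (s⁻¹ * x * s) * s⁻¹ = x := by group
        rw [h2] at h1
        rw [h1]
        exact inv_mem hx
      · intro hx
        have h1 := hs.inv c hc' h _ (inv_mem hx)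
        rw [inv_inv] at h1
        have h2 : s⁻¹ * x * s = x⁻¹ := by
          calc s⁻¹ * x * s = s⁻¹ * (s * x⁻¹ * s⁻¹) * s := by rw [h1]
            _ = x⁻¹ := by group
        rw [h2]
        exact inv_mem hx
    · constructor
      · intro hx
        have h1 := hs.fix c hc' h _ hx
        have h2 : s * (s⁻¹ * x * s) * s⁻¹ = x := by group
        rw [h1, mul_inv_cancel_right] at h2
        rwa [h2] at hx
      · intro hx
        have h1 := hs.fix c hc' h _ hx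
        have h2 : s⁻¹ * x * s = x := by rw [mul_assoc, ← h1, inv_mul_cancel_left]
        rwa [h2]
  fix z hz h u hu := hs.fix z ((mem_rts cs).1 hz) (bits_true.1 h) u hu
  inv z hz h u hu := hs.inv z ((mem_rts cs).1 hz) (bits_false.1 h) u hu

include hφ hqq in
theorem dat (hqp : IsPrimePow q) (ho : Odd q) (hK : Fintype.card K = q ^ 2) : Dat q (X φ q) := by
  obtain ⟨p, hp⟩ := CharP.exists K
  have hprime : p.Prime := CharP.char_prime_of_ne_zero K (CharP.char_ne_zero_of_finite K p)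
  have : Fact p.Prime := ⟨hprime⟩
  have hp2 : p ≠ 2 := by
    rintro rfl
    have hF : Odd (Fintype.card K) := by
      rw [hK]
      exact ho.pow
    obtain ⟨n, -, hn⟩ := FiniteField.card K 2
    rw [hn] at hF
    exact absurd hF (Nat.not_odd_iff_even.2 (even_two.pow_of_ne_zero n.ne_zero))
  have hpo : Odd p := hprime.odd_of_ne_two hp2
  have h2K : (2 : K) ≠ 0 := (odd_card (F := K) hpo).2
  have hq2 : 2 ≤ q := hqp.two_le
  have hq3 : 3 ≤ q := by
    rcases ho with ⟨k, hk⟩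
    omega
  obtain ⟨cs, -⟩ : ∃ cs, cs = CoxeterMatrix.F₄.toCoxeterSystem := ⟨_, rfl⟩
  have hW : Finite CoxeterMatrix.F₄.Group := Cfsg.Agent.KFacts.TwESix.Comb.finiteW cs
  have R := rgd cs hφ hqq p
  have hr : ∀ {z : Fin 4 → ℤ}, z ∈ rts → IsRoot cs isCartan z := fun hz => (mem_rts cs).2 hz
  have hS := Cfsg.Agent.S1070.result hqp hK
  have hs : IsSimpleGroup ↥(Lie.twistedE6 K q) := hS.1
  have hZ : Subgroup.center ↥(Lie.twistedE6 K q) = ⊥ := by
    rcases (inferInstance : (Subgroup.center ↥(Lie.twistedE6 K q)).Normal).eq_bot_or_eq_top with h1 | h1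
    · exact h1
    · exfalso
      apply hS.2
      exact ⟨⟨fun a b => by
        have h2 : a ∈ Subgroup.center ↥(Lie.twistedE6 K q) := by rw [h1]; exact Subgroup.mem_top a
        exact (Subgroup.mem_center_iff.1 h2 b).symm⟩⟩
  refine
    { od := ho
      q3 := hq3
      cl := fun z hz hl => H203.IF.TE6.card_long hφ hqq hq2 hK (hr hz) hl
      cs := fun z hz hs => H203.IF.TE6.card_short hφ hqq hK (hr hz) hs
      com := fun z hz w hw h1 h2 => commute_X hφ hqq (hr hz) (hr hw) h1 h2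
      cm := fun z hz w hw h1 h2 h3 => H203.IF.TE6.com_mem hφ hqq (hr hz) (hr hw) (hr h1) h2 h3
      cj := fun z hz w hw h1 h2 h3 => H203.IF.TE6.com_surj hφ hqq h2K (hr hz) (hr hw) (hr h1) h2 h3
      ab := fun z hz _ => commute_X hφ hqq (hr hz) (hr hz) (tab_dbl z hz).1 (tab_dbl z hz).2
      bt := ?_
      sl := ?_
      gen := ?_
      cen := ?_
      i1 := fun s hs => H203.IF.TE6.idx_one hφ hqq hqp ho hK (sgn_of_se hφ hqq p cs hs)
      i8 := fun n hn s hs => H203.IF.TE6.idx_eight hφ hqq hqp ho hK hn (sgn_of_se hφ hqq p cs hs) }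
  · intro z hz w hw h1 h2 L hL u hu v hv
    have h3 := R.comm z w (hr hz) (hr hw) h1 h2 u hu v hv
    refine (iSup_le ?_ : btw cs isCartan (X φ q) z w ≤ L) h3
    rintro ⟨c, hc, m, i, j, hm, hi, hj, e⟩
    exact hL c ((mem_rts cs).1 hc) ⟨m, i, j, hm, hi, hj, e⟩
  · intro a ha hl
    obtain ⟨ζ, H, h⟩ := H203.IF.TE6.sl hφ hqq p h2K (hr ha) hl
    refine ⟨ζ, ⟨fun z hz he u hu => ?_, fun z hz he u hu => ?_⟩, h⟩
    · rw [tab_msk a ha hl z hz, beq_iff_eq] at he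
      exact (H.even z (hr hz) he u hu).symm
    · rw [tab_msk a ha hl z hz, beq_eq_false_iff_ne] at he
      have h1 := H.inv' z (hr hz) he u hu
      rw [H.inv_eq]
      exact h1
  · intro L hL
    rw [eq_top_iff, ← G1_eq_top (cs := cs) hφ hqq]
    exact RGD.Sup_le fun z hz => hL z ((mem_rts cs).1 hz)
  · intro g hg
    have h1 : g ∈ Subgroup.center ↥(Lie.twistedE6 K q) := Subgroup.mem_center_iff.2 fun x => (hg x).symm
    rw [hZ] at h1
    exact Subgroup.mem_bot.1 h1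

/-- **S5719 for `²E₆(q)`, `q` odd, `|A|` even.** -/
theorem te6_odd (K : Type) [Field K] [Fintype K] (q : ℕ) (hqp : IsPrimePow q) (hK : Fintype.card K = q ^ 2)
    (ho : Odd q) (hsim : IsSimpleGroup (twistedE6 K q)) : H209.Fxy.KillE (twistedE6 K q) := by
  rintro A Γ hIF ⟨t, htA, ht2⟩
  obtain ⟨φ, hφ, hqq⟩ := ChevalleyStructure.TwE6Basic.exists_frob hqp hK
  have D := dat hφ hqq hqp ho hK
  have hS := Cfsg.Agent.S1070.result hqp hK
  have hna : ∃ a b : ↥(twistedE6 K q), a * b ≠ b * a := by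
    by_contra hcon
    push Not at hcon
    exact hS.2 ⟨⟨hcon⟩⟩
  have hfix := H255.IFK.fix_of_IF hIF hna
  obtain ⟨cs, -⟩ : ∃ cs, cs = CoxeterMatrix.F₄.toCoxeterSystem := ⟨_, rfl⟩
  have htt : t * t = 1 := by rw [← pow_two, ← ht2, pow_orderOf_eq_one]
  have ht1 : t ≠ 1 := by
    rintro rfl
    rw [orderOf_one] at ht2
    exact absurd ht2 (by norm_num)
  obtain ⟨k, s, n, hn, hs, e⟩ := H203.IF.TE6.inv_mask hφ hqq hqp ho hK cs htt ht1
  have hsA : s ∈ MulAut.conj k⁻¹ • A := by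
    rw [H255.IFK.mem_conj, inv_inv, ← e]
    exact htA
  have h7 : MulAut.conj k⁻¹ • A = ⊤ := D.main (hfix.conj k⁻¹) hsA (by
    rcases hn with rfl | rfl
    · exact Or.inl (se_of_sgn hs)
    · exact Or.inr (se_of_sgn hs))
  apply hIF.ne_top
  rw [eq_top_iff]
  intro x _
  have h8 : k⁻¹ * x * k ∈ MulAut.conj k⁻¹ • A := by rw [h7]; exact Subgroup.mem_top _
  rw [H255.IFK.mem_conj] at h8
  have h9 : k⁻¹⁻¹ * (k⁻¹ * x * k) * k⁻¹ = x := by group
  rwa [h9] at h8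

end Cfsg.Agent.H891.IF
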