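import Cfsg.Agent.H891.IF.TE6Core

/-!
# S5719, `²E₆(q)`, `q` odd: the involutions of mask `1` (helper891)

* `Dat.phi1` : the subgroups of `⟨X b : b ⟂ rho⟩` of index less than `q^9` contain a conjugate of an involution of a
  long root;
* `Dat.main` : no `Fix A` with `A` containing an involution of mask `1` or `8`.
-/

set_option autoImplicit false
set_option linter.unusedSectionVars false

namespace Cfsg.Agent.H891.IF

open Subgroup Cfsg.Agent.H203.IF Cfsg.Agent.H255.IFK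
open Cfsg.Agent.KFacts.TwESix.Comb (bf rts rho bf_add_left bf_sub_left bf_sub_right bf_comm bf_smul_left)
open scoped commutatorElement Pointwise

theorem tab_pos : ∀ a ∈ rts, bf a a = 4 → ∀ b ∈ rts, 0 < bf b a → bf b a = 2 ∨ b = a := by decide +kernel

variable {T : Type*} [Group T] {q : ℕ} {X : (Fin 4 → ℤ) → Subgroup T} {n m : ℕ} {s t : T}

/-- the subgroup generated by the root groups with `P` -/
def Lv (X : (Fin 4 → ℤ) → Subgroup T) (P : (Fin 4 → ℤ) → Bool) : Subgroup T :=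
  closure {g | ∃ b ∈ rts, P b = true ∧ g ∈ X b}

theorem X_le_Lv {P : (Fin 4 → ℤ) → Bool} {b : Fin 4 → ℤ} (hb : b ∈ rts) (h : P b = true) : X b ≤ Lv X P :=
  fun _ hg => subset_closure ⟨b, hb, h, hg⟩

theorem Lv_le {P : (Fin 4 → ℤ) → Bool} {L : Subgroup T} (h : ∀ b ∈ rts, P b = true → X b ≤ L) : Lv X P ≤ L :=
  (closure_le _).2 fun _ ⟨b, hb, h1, hg⟩ => h b hb h1 hg

theorem Lv_mono {P P' : (Fin 4 → ℤ) → Bool} (h : ∀ b, P' b = true → P b = true) : Lv X P' ≤ Lv X P :=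
  Lv_le fun _ hb h1 => X_le_Lv hb (h _ h1)

/-- `P` is linear -/
def Lin (P : (Fin 4 → ℤ) → Bool) : Prop := ∀ z b c : Fin 4 → ℤ, ∀ m i j : ℤ, 0 < m → m • c = i • z + j • b →
  P z = true → P b = true → P c = true

theorem lin_bf {r z b c : Fin 4 → ℤ} {m i j : ℤ} (hm : 0 < m) (h : m • c = i • z + j • b) (hz : bf z r = 0)
    (hb : bf b r = 0) : bf c r = 0 := by
  have h1 : m * bf c r = 0 := by
    rw [← bf_smul_left, h, bf_add_left, bf_smul_left, bf_smul_left, hz, hb]; ring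
  exact (mul_eq_zero.1 h1).resolve_left hm.ne'

theorem lin1 : Lin P1 := by
  intro z b c m i j hm h hz hb
  simp only [P1, beq_iff_eq] at hz hb ⊢
  exact lin_bf hm h hz hb

theorem lin2 : Lin P2 := by
  intro z b c m i j hm h hz hb
  simp only [P2, Bool.and_eq_true, beq_iff_eq] at hz hb ⊢
  exact ⟨lin_bf hm h hz.1 hb.1, lin_bf hm h hz.2 hb.2⟩

theorem sub_P1 : ∀ a b : Fin 4 → ℤ, P1 a = true → P1 b = true → P1 (a - b) = true := fun a b ha hb =>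
  lin1 a b (a - b) 1 1 (-1) one_pos (by rw [one_smul, one_smul, neg_smul, one_smul, sub_eq_add_neg]) ha hb

theorem sub_P2 : ∀ a b : Fin 4 → ℤ, P2 a = true → P2 b = true → P2 (a - b) = true := fun a b ha hb =>
  lin2 a b (a - b) 1 1 (-1) one_pos (by rw [one_smul, one_smul, neg_smul, one_smul, sub_eq_add_neg]) ha hb

namespace Dat

variable (D : Dat q X)

include D

/-- `⟨X z : z ⟂ a⟩` normalises the Heisenberg group of `a` -/
theorem norm_QQ {a : Fin 4 → ℤ} (ha : a ∈ rts) (hl : bf a a = 4) {P P' : (Fin 4 → ℤ) → Bool} (hPa : P a = true)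
    (hlin : Lin P) (h' : ∀ z, P' z = true → P z = true ∧ bf z a = 0) :
    ∀ l ∈ Lv X P', ∀ u ∈ QQ (X a) X (SS a P), l * u * l⁻¹ ∈ QQ (X a) X (SS a P) := by
  have key : ∀ z ∈ rts, P' z = true → ∀ g ∈ X z, ∀ u ∈ QQ (X a) X (SS a P), g * u * g⁻¹ ∈ QQ (X a) X (SS a P) := by
    intro z hz hPz g hg
    obtain ⟨h1, h2⟩ := h' z hPz
    have h3 : ∀ b ∈ rts, 0 < bf b a → P b = true → X b ≤ QQ (X a) X (SS a P) := by
      intro b hb hpos hPb
      rcases tab_pos a ha hl b hb hpos with h | h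
      · exact Heis.X_le (mem_SS.2 ⟨hb, h, hPb⟩)
      · rw [h]
        exact Heis.Z_le
    have h4 : ∀ b ∈ rts, 0 < bf b a → P b = true → ∀ v ∈ X b, g * v * g⁻¹ ∈ QQ (X a) X (SS a P) := by
      intro b hb hpos hPb v hv
      have h5 : ⁅g, v⁆ ∈ QQ (X a) X (SS a P) := by
        refine D.bt z hz b hb ?_ ?_ _ (fun c hc hmc => ?_) g hg v hv
        · rintro rfl
          omega
        · rintro rfl
          rw [Cfsg.Agent.KFacts.TwESix.Comb.bf_neg_left] at h2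
          omega
        · obtain ⟨m, i, j, hm, hi, hj, e⟩ := hmc
          refine h3 c hc ?_ (hlin z b c m i j hm e h1 hPb)
          have h6 : m * bf c a = j * bf b a := by
            rw [← bf_smul_left, e, bf_add_left, bf_smul_left, bf_smul_left, h2]; ring
          have h7 : 0 < m * bf c a := by
            rw [h6]
            exact mul_pos hj hpos
          exact (pos_iff_pos_of_mul_pos h7).1 hm
      have h6 : g * v * g⁻¹ = ⁅g, v⁆ * v := by rw [commutatorElement_def, inv_mul_cancel_right]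
      rw [h6]
      exact mul_mem h5 (h3 b hb hpos hPb hv)
    have h5 : QQ (X a) X (SS a P) ≤ (QQ (X a) X (SS a P)).comap (MulAut.conj g).toMonoidHom := by
      refine Heis.QQ_le (fun v hv => ?_) (fun b hb v hv => ?_)
      · exact h4 a ha (by rw [hl]; norm_num) hPa v hv
      · obtain ⟨h6, h7, h8⟩ := mem_SS.1 hb
        exact h4 b h6 (by rw [h7]; norm_num) h8 v hv
    intro u hu
    exact h5 hu
  have h2 : Lv X P' ≤ normalizer (QQ (X a) X (SS a P) : Set T) := by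
    refine Lv_le fun z hz hPz g hg => ?_
    rw [mem_normalizer_iff]
    intro u
    refine ⟨fun hu => key z hz hPz g hg u hu, fun hu => ?_⟩
    have h3 := key z hz hPz g⁻¹ (inv_mem hg) _ hu
    have h4 : g⁻¹ * (g * u * g⁻¹) * g⁻¹⁻¹ = u := by group
    rwa [h4] at h3
  intro l hl u hu
  exact (mem_normalizer_iff.1 (h2 hl) u).1 hu

theorem QQ_le_Lv {a : Fin 4 → ℤ} (ha : a ∈ rts) {P : (Fin 4 → ℤ) → Bool} (hPa : P a = true) :
    QQ (X a) X (SS a P) ≤ Lv X P :=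
  Heis.QQ_le (X_le_Lv ha hPa) fun _ hb => X_le_Lv (mem_SS.1 hb).1 (mem_SS.1 hb).2.2

theorem QQ_odd [Finite T] {a : Fin 4 → ℤ} (ha : a ∈ rts) (hl : bf a a = 4) {P : (Fin 4 → ℤ) → Bool}
    (hP : ∀ b ∈ rts, P b = true → P (a - b) = true) : Odd (Nat.card (QQ (X a) X (SS a P))) := by
  rw [D.heis_card ha hl hP]
  exact D.od.pow

theorem step [Finite T] {Zs : Set T} {c k : ℕ} {a : Fin 4 → ℤ} (ha : a ∈ rts) (hl : bf a a = 4) (ha' : -a ∈ rts)
    (hl' : bf (-a) (-a) = 4) {P P' : (Fin 4 → ℤ) → Bool} (hPa : P a = true) (hPa' : P (-a) = true)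
    (hlin : Lin P) (hsub : ∀ a b : Fin 4 → ℤ, P a = true → P b = true → P (a - b) = true)
    (h' : ∀ z, P' z = true → P z = true ∧ bf z a = 0)
    (hk : ((rts.filter fun b => bf b a == 2 && P b).map dm).sum + 2 = 2 * k)
    (hk' : ((rts.filter fun b => bf b (-a) == 2 && P b).map dm).sum + 2 = 2 * k)
    (hZ2 : ∀ z ∈ Zs, z * z = 1) (hZc : ∀ g ∈ Lv X P, ∀ z ∈ Zs, g * z * g⁻¹ ∈ Zs)
    (hop : ∀ u ∈ X a, ∀ v ∈ X (-a), u ≠ 1 → v ≠ 1 → ∃ z ∈ Zs, z ∈ closure {u, v})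
    (h : Phi (Lv X P') Zs c) : Phi (Lv X P) Zs (q ^ k * c) := by
  have h0 : ∀ b ∈ rts, P b = true → P (a - b) = true := fun b _ hb => hsub a b hPa hb
  have h0' : ∀ b ∈ rts, P b = true → P (-a - b) = true := fun b _ hb => hsub (-a) b hPa' hb
  refine Phi.step (D.heis ha hl h0) (D.heis ha' hl' h0') h (Lv_mono fun b hb => (h' b hb).1)
    (D.QQ_le_Lv ha hPa) (D.QQ_le_Lv ha' hPa') (D.QQ_odd ha hl h0) (D.QQ_odd ha' hl' h0')
    (D.norm_QQ ha hl hPa hlin h') (D.norm_QQ ha' hl' hPa' hlin fun z hz => ⟨(h' z hz).1, ?_⟩) ?_ ?_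
    (D.ne_bot ha) (D.ne_bot ha') hZ2 hZc hop
  · rw [Cfsg.Agent.KFacts.TwESix.Comb.bf_neg_right, (h' z hz).2, neg_zero]
  · rw [D.heis_card ha hl h0, D.cl a ha hl, ← pow_succ, ← pow_mul, add_assoc, hk, mul_comm]
  · rw [D.heis_card ha' hl' h0', D.cl _ ha' hl', ← pow_succ, ← pow_mul, add_assoc, hk', mul_comm]

/-- the conjugates of the involutions of the long roots orthogonal to `rho` -/
def ZZ (X : (Fin 4 → ℤ) → Subgroup T) : Set T :=
  {g | ∃ m ∈ Lv X P1, ∃ a ∈ rts, bf a a = 4 ∧ bf a rho = 0 ∧ ∃ ζ, SE X (msk a) ζ ∧ g = m * ζ * m⁻¹}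

theorem ZZ_sq : ∀ z ∈ ZZ X, z * z = 1 := by
  rintro _ ⟨m, -, a, -, -, -, ζ, hζ, rfl⟩
  calc m * ζ * m⁻¹ * (m * ζ * m⁻¹) = m * (ζ * ζ) * m⁻¹ := by group
    _ = 1 := by rw [D.sq hζ]; group

omit D in
theorem ZZ_conj {L : Subgroup T} (hL : L ≤ Lv X P1) : ∀ g ∈ L, ∀ z ∈ ZZ X, g * z * g⁻¹ ∈ ZZ X := by
  rintro g hg _ ⟨m, hm, a, ha, hl, h0, ζ, hζ, rfl⟩
  exact ⟨g * m, mul_mem (hL hg) hm, a, ha, hl, h0, ζ, hζ, by group⟩

theorem ZZ_op {a : Fin 4 → ℤ} (ha : a ∈ rts) (hl : bf a a = 4) (h0 : bf a rho = 0) :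
    ∀ u ∈ X a, ∀ v ∈ X (-a), u ≠ 1 → v ≠ 1 → ∃ z ∈ ZZ X, z ∈ closure {u, v} := by
  intro u hu v hv hu1 hv1
  obtain ⟨ζ, hζ, h⟩ := D.sl a ha hl
  exact ⟨ζ, ⟨1, one_mem _, a, ha, hl, h0, ζ, hζ, by group⟩, h u hu v hv hu1 hv1⟩

theorem phi1 [Finite T] : Phi (Lv X P1) (ZZ X) (q ^ 9) := by
  obtain ⟨⟨h11, h12, h13⟩, ⟨h21, h22, h23⟩, ⟨h31, h32, h33⟩, ⟨h41, h42, h43⟩, ⟨h51, h52, h53⟩, ⟨h61, h62, h63⟩⟩ := tab_b
  obtain ⟨t1, t2, t3, t4⟩ := tab_c1
  have e32 : ∀ b, P3 b = true → P2 b = true ∧ bf b b2 = 0 := by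
    intro b hb
    simp only [P3, P2, Bool.and_eq_true, beq_iff_eq] at hb ⊢
    exact hb
  have e21 : ∀ b, P2 b = true → P1 b = true ∧ bf b b1 = 0 := by
    intro b hb
    simp only [P1, P2, Bool.and_eq_true, beq_iff_eq] at hb ⊢
    exact hb
  have e1 : ∀ b, P1 b = true → bf b rho = 0 := by
    intro b hb
    simpa only [P1, beq_iff_eq] using hb
  have L32 : Lv X P3 ≤ Lv X P2 := Lv_mono fun b hb => (e32 b hb).1
  have L21 : Lv X P2 ≤ Lv X P1 := Lv_mono fun b hb => (e21 b hb).1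
  have p3 : Phi (Lv X P3) (ZZ X) q := Phi.start (X_le_Lv h31 h33) (X_le_Lv h61 h63) (D.cl _ h31 h32).ge
    (D.cl _ h61 h62).ge (D.ZZ_op h31 h32 (e1 _ (e21 _ (e32 _ h33).1).1))
  have p2 : Phi (Lv X P2) (ZZ X) (q ^ 3 * q) := D.step h21 h22 h51 h52 h23 h53 lin2 sub_P2 e32 (by rw [t3]) (by rw [t4])
    D.ZZ_sq (ZZ_conj L21) (D.ZZ_op h21 h22 (e1 _ (e21 _ h23).1)) p3
  have p1 := D.step h11 h12 h41 h42 h13 h43 lin1 sub_P1 e21 (k := 5) (by rw [t1]) (by rw [t2])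
    D.ZZ_sq (ZZ_conj le_rfl) (D.ZZ_op h11 h12 (e1 _ h13)) p2
  have e : q ^ 9 = q ^ 5 * (q ^ 3 * q) := by ring
  rw [e]
  exact p1

/-- **an involution of mask `1`** -/
theorem main1 [Finite T] {A : Subgroup T} (hA : H255.IFK.Fix A) (hsA : s ∈ A) (hs : SE X 1 s) : A = ⊤ := by
  obtain ⟨f, hf, hlt⟩ := hA s hsA (D.order_two hs (by simp))
  have hq3 := D.q3
  have h1 : f ^ 5 < (centralizer ({s} : Set T)).index := by
    refine lt_of_le_of_lt (Nat.le_mul_of_pos_right _ ?_) hlt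
    exact (Set.ncard_pos (Set.toFinite _)).2 ⟨s, hsA, IsConj.refl s⟩
  have h2 : f ^ 5 * (q - 1) ^ 6 < q ^ 46 :=
    lt_of_lt_of_le (Nat.mul_lt_mul_of_pos_right h1 (pow_pos (by omega) _)) (D.i1 s hs)
  have h3 := arith_f hq3 h2
  have hLC : Lv X P1 ≤ centralizer ({s} : Set T) := Lv_le fun b hb hP u hu => by
    rw [mem_centralizer_singleton_iff]
    refine (hs.fix b hb (tab_one b hb ?_) u hu).symm
    simpa only [P1, beq_iff_eq] using hP
  have h4 : A.relIndex (Lv X P1) < q ^ 9 := lt_of_le_of_lt (hf _ hLC) h3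
  obtain ⟨z, hz, hzA⟩ : ∃ z ∈ ZZ X, z ∈ A := by
    by_contra hcon
    push Not at hcon
    have h5 := D.phi1 (A ⊓ Lv X P1) inf_le_right fun z hz hzA => hcon z hz hzA.1
    rw [inf_relIndex_right] at h5
    omega
  obtain ⟨m, hm, a, ha, hl, h0, ζ, hζ, rfl⟩ := hz
  have hζA : ζ ∈ MulAut.conj m⁻¹ • A := by
    rw [mem_conj, inv_inv]
    exact hzA
  have hsA' : s ∈ MulAut.conj m⁻¹ • A := by
    rw [mem_conj, inv_inv]
    have h5 := mem_centralizer_singleton_iff.1 (hLC hm)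
    rw [h5, mul_inv_cancel_right]
    exact hsA
  have h6 := hs.mul hζ (by norm_num) (msk_lt a ha)
  have h7 := D.main8 (hA.conj m⁻¹) (mul_mem hsA' hζA) (tab_rho a ha hl h0) h6
  rw [eq_top_iff]
  intro x _
  have h8 : m⁻¹ * x * m ∈ MulAut.conj m⁻¹ • A := by rw [h7]; exact mem_top _
  rw [mem_conj] at h8
  have h9 : m⁻¹⁻¹ * (m⁻¹ * x * m) * m⁻¹ = x := by group
  rwa [h9] at h8

/-- **the contradiction** -/
theorem main [Finite T] {A : Subgroup T} (hA : H255.IFK.Fix A) (hsA : s ∈ A) (hs : SE X 1 s ∨ SE X 8 s) : A = ⊤ := by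
  rcases hs with hs | hs
  · exact D.main1 hA hsA hs
  · exact D.main8 hA hsA (by simp) hs

end Dat

end Cfsg.Agent.H891.IF
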