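import Cfsg.Agent.KFacts.TwESix.Comb

/-!
# S5719, `²E₆(q)`, `q` odd: tables for the relative root system `F₄` (helper891)
-/

set_option autoImplicit false
set_option linter.unusedSectionVars false

namespace Cfsg.Agent.H891.IF

open Cfsg.Agent.KFacts.TwESix.Comb (bf rts rho bf_add_left bf_sub_left bf_sub_right bf_comm)

/-- the parity of `z` for the mask `n` -/
def ev (n : ℕ) (z : Fin 4 → ℤ) : Bool :=
  ((if n.testBit 0 then z 0 else 0) + (if n.testBit 1 then z 1 else 0) + (if n.testBit 2 then z 2 else 0) +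
    (if n.testBit 3 then z 3 else 0)) % 2 == 0

/-- the mask of a long root -/
def msk (a : Fin 4 → ℤ) : ℕ :=
  (if bf ![1, 0, 0, 0] a % 4 = 0 then 0 else 1) + (if bf ![0, 1, 0, 0] a % 4 = 0 then 0 else 2) +
  (if bf ![0, 0, 1, 0] a % 4 = 0 then 0 else 4) + (if bf ![0, 0, 0, 1] a % 4 = 0 then 0 else 8)

/-- the exponent of the order of the root group -/
def dm (b : Fin 4 → ℤ) : ℕ := if bf b b = 4 then 1 else 2

theorem nodup_rts : rts.Nodup := by decide +kernel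

theorem neg_rts : ∀ a ∈ rts, -a ∈ rts := by decide +kernel

theorem rho_rts : rho ∈ rts ∧ bf rho rho = 4 := by decide +kernel

set_option maxRecDepth 20000 in
theorem tab_sub : ∀ a ∈ rts, bf a a = 4 → ∀ b ∈ rts, (bf b a = 2 → a - b ∈ rts) ∧ bf b a ≤ 4 ∧ (bf b a = 4 → b = a) := by
  decide +kernel

theorem tab_ev : ∀ n ∈ [4, 8, 12], ∀ a ∈ rts, bf a a = 4 → ev n a = true ∧ ∀ b ∈ rts, ev n b = true → ev n (a - b) = true := by
  decide +kernel

set_option maxRecDepth 20000 in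
theorem tab_dm : ∀ n ∈ [4, 8, 12], ∀ a ∈ rts, bf a a = 4 →
    ((rts.filter fun b => bf b a == 2 && ev n b).map dm).sum = 12 := by
  decide +kernel

theorem tab_half : ∀ c ∈ rts, bf c c = 4 → ∃ a ∈ rts, bf a a = 4 ∧ bf a c = 2 := by decide +kernel

theorem tab_msk : ∀ a ∈ rts, bf a a = 4 → ∀ b ∈ rts, ev (msk a) b = (bf b a % 4 == 0) := by decide +kernel

theorem tab_odd : ∀ b ∈ rts, ∃ a ∈ rts, bf a a = 4 ∧ bf b a % 4 ≠ 0 := by decide +kernel

theorem tab_pair : ∀ n ∈ [4, 8, 12], ∃ a ∈ rts, bf a a = 4 ∧ ∃ b ∈ rts, bf b b = 4 ∧ msk a ^^^ msk b = n := by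
  decide +kernel

theorem tab_cov : ∀ b ∈ rts, ∃ n ∈ [4, 8, 12], ev n b = true := by decide +kernel

theorem tab_xor : ∀ n < 16, ∀ m < 16, ∀ b ∈ rts, ev (n ^^^ m) b = (ev n b == ev m b) := by
  decide +kernel

theorem msk_lt : ∀ a ∈ rts, msk a < 16 := by decide +kernel

theorem tab_rho : ∀ a ∈ rts, bf a a = 4 → bf a rho = 0 → 1 ^^^ msk a ∈ [4, 8, 12] := by decide +kernel

theorem tab_one : ∀ b ∈ rts, bf b rho = 0 → ev 1 b = true := by decide +kernel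

theorem tab_exists : ∀ n ∈ [1, 4, 8, 12], ∃ b ∈ rts, ev n b = false := by decide +kernel

/-- the three orthogonal long roots -/
def b1 : Fin 4 → ℤ := ![0, 1, 0, 0]
def b2 : Fin 4 → ℤ := ![0, 1, 2, 0]
def b3 : Fin 4 → ℤ := ![0, 1, 2, 2]

/-- the roots orthogonal to `rho` -/
def P1 (b : Fin 4 → ℤ) : Bool := bf b rho == 0
/-- the roots orthogonal to `rho`, `b1` -/
def P2 (b : Fin 4 → ℤ) : Bool := bf b rho == 0 && bf b b1 == 0
/-- the roots orthogonal to `rho`, `b1`, `b2` -/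
def P3 (b : Fin 4 → ℤ) : Bool := bf b rho == 0 && bf b b1 == 0 && bf b b2 == 0

theorem tab_b : (b1 ∈ rts ∧ bf b1 b1 = 4 ∧ P1 b1 = true) ∧ (b2 ∈ rts ∧ bf b2 b2 = 4 ∧ P2 b2 = true) ∧
    (b3 ∈ rts ∧ bf b3 b3 = 4 ∧ P3 b3 = true) ∧ (-b1 ∈ rts ∧ bf (-b1) (-b1) = 4 ∧ P1 (-b1) = true) ∧
    (-b2 ∈ rts ∧ bf (-b2) (-b2) = 4 ∧ P2 (-b2) = true) ∧ (-b3 ∈ rts ∧ bf (-b3) (-b3) = 4 ∧ P3 (-b3) = true) := by
  decide +kernel

theorem tab_c1 : ((rts.filter fun b => bf b b1 == 2 && P1 b).map dm).sum = 8 ∧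
    ((rts.filter fun b => bf b (-b1) == 2 && P1 b).map dm).sum = 8 ∧
    ((rts.filter fun b => bf b b2 == 2 && P2 b).map dm).sum = 4 ∧
    ((rts.filter fun b => bf b (-b2) == 2 && P2 b).map dm).sum = 4 := by
  decide +kernel

theorem tab_P1 : ∀ a ∈ rts, P1 a = true → ∀ b ∈ rts, P1 b = true → P1 (a - b) = true := by decide +kernel

theorem tab_P2 : ∀ a ∈ rts, P2 a = true → ∀ b ∈ rts, P2 b = true → P2 (a - b) = true := by decide +kernel

end Cfsg.Agent.H891.IF
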